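import Cfsg.Agent.ChevGrp.WeaklyClosed
import Cfsg.Prelude.Def_ChevG2
import Cfsg.Prelude.Def_ChevB2
import Cfsg.Prelude.Def_ChevD4
import Cfsg.Prelude.Def_ChevF4
import Cfsg.Prelude.Def_ChevE6
import Cfsg.Prelude.Def_ChevE7
import Cfsg.Prelude.Def_ChevE8

/-!
Certificates for the commutator and separation data used for weakly closed subgroups of `U` (owner: helper32).
-/

set_option autoImplicit false

namespace Cfsg.Agent.ChevGrp

open Cfsg.Lie

/-- Boolean form of `TermAbove`. -/
def aboveB (i : ℕ) (c : ℕ × ℤ × ℕ × ℕ) : Bool :=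
  decide (i ≤ c.2.2.1) && decide (1 ≤ c.2.2.2) && (decide (i < c.2.2.1) || decide (1 < c.2.2.2))

/-- The term `r` sought in the list of commutator terms, the third place only when `cub` holds. -/
def termB (D : ChevalleyDatum) (cub : Bool) (r : ℕ) : List (ℕ × ℤ × ℕ × ℕ) → Bool
  | (a, C, 1, 1) :: post =>
    if a == r then C.natAbs == 1 && post.all (aboveB 1)
    else match post with
      | (b, C', 2, 1) :: post' =>
        if b == r then C'.natAbs == 1 && post'.all (aboveB 2)
        else match post' with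
          | (d, C'', 3, 1) :: post'' =>
            cub && d == r && C''.natAbs == 1 && post''.all (aboveB 3) && !(r == D.neg b) &&
              (D.commTerms b r).isEmpty
          | _ => false
      | _ => false
  | _ => false

/-- A certificate `(r, k, r')`. -/
def wcCertB (D : ChevalleyDatum) (cub : Bool) (c : ℕ × ℕ × ℕ) : Bool :=
  decide (c.2.1 < D.rank) && decide (D.IsPosRoot c.2.2) && !(c.2.2 == D.simple c.2.1) &&
    termB D cub c.1 (D.commTerms (D.simple c.2.1) c.2.2)

/-- The certificates cover the positive roots that are not fundamental. -/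
def coverB (D : ChevalleyDatum) (cs : List (ℕ × ℕ × ℕ)) : Bool :=
  (List.range D.nroots).all fun r =>
    !decide (D.IsPosRoot r) || (List.range D.rank).any (fun i => r == D.simple i) || cs.any fun c => c.1 == r

/-- Separation of the fundamental roots by exponents of absolute value at most `m`. -/
def sepB (D : ChevalleyDatum) (m : ℕ) : Bool :=
  (List.range D.rank).all fun k => (List.range D.rank).all fun l => k == l ||
    (List.range D.rank).any fun j => (List.range D.rank).any fun j' =>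
      [(1 : ℤ), 2, 3, -1, -2, -3].any fun a => [(0 : ℤ), 1, 2, 3, -1, -2, -3].any fun b =>
        a * D.cartan j (D.simple l) + b * D.cartan j' (D.simple l) == 0 &&
          decide (1 ≤ (a * D.cartan j (D.simple k) + b * D.cartan j' (D.simple k)).natAbs) &&
          decide ((a * D.cartan j (D.simple k) + b * D.cartan j' (D.simple k)).natAbs ≤ m)

theorem termAbove_of_all {i : ℕ} {post : List (ℕ × ℤ × ℕ × ℕ)} (h : post.all (aboveB i) = true) :
    ∀ c ∈ post, TermAbove i c := by
  intro c hc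
  have h' := List.all_eq_true.1 h c hc
  simp only [aboveB, Bool.and_eq_true, Bool.or_eq_true, decide_eq_true_eq] at h'
  exact ⟨h'.1.1, h'.1.2, h'.2⟩

theorem cast_ne_zero_of_natAbs {F : Type*} [Field F] {C : ℤ} (h : C.natAbs = 1) : (C : F) ≠ 0 := by
  rcases Int.natAbs_eq C with e | e <;> rw [e, h] <;> simp

theorem commData_of_certs {D : ChevalleyDatum} (cub : Bool) (cs : List (ℕ × ℕ × ℕ))
    (hok : cs.all (wcCertB D cub) = true) (hcov : coverB D cs = true) {F : Type*} [Field F]
    (h3 : ∃ t : F, t ^ 2 - t ≠ 0)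
    (h4 : cub = true → ∃ t t' : F, t ^ 2 - t ≠ 0 ∧ t' ^ 2 - t' ≠ 0 ∧ t ≠ t') : CommData D F := by
  refine ⟨h3, fun r hr hn => ?_⟩
  have hc := List.all_eq_true.1 hcov r (List.mem_range.2 hr.1)
  simp only [Bool.or_eq_true, Bool.not_eq_true', decide_eq_false_iff_not, List.any_eq_true, List.mem_range,
    beq_iff_eq] at hc
  rcases hc with (hc | ⟨i, hi, e⟩) | ⟨c, hmem, rfl⟩
  · exact absurd hr hc
  · exact absurd e (hn ⟨i, hi⟩)
  have h := List.all_eq_true.1 hok c hmem
  obtain ⟨r, k, r'⟩ := c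
  simp only [wcCertB, Bool.and_eq_true, decide_eq_true_eq, Bool.not_eq_true', beq_eq_false_iff_ne] at h
  obtain ⟨⟨⟨hk, hr'⟩, hne⟩, hterm⟩ := h
  refine ⟨⟨k, hk⟩, r', hr', hne, ?_⟩
  unfold TermAt
  simp only
  generalize hL : D.commTerms (D.simple k) r' = L at hterm
  match L, hterm with
  | [], h => simp [termB] at h
  | (a, C, i, j) :: post, h =>
    unfold termB at h
    split at h
    · rename_i a C post e
      simp only [List.cons.injEq, Prod.mk.injEq] at e
      obtain ⟨⟨rfl, rfl, rfl, rfl⟩, rfl⟩ := e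
      split at h
      · rename_i ha
        simp only [Bool.and_eq_true, beq_iff_eq] at h ha
        subst ha
        exact ⟨_, cast_ne_zero_of_natAbs h.1, Or.inl ⟨_, rfl, termAbove_of_all h.2⟩⟩
      · split at h
        · rename_i b C' post' e
          split at h
          · rename_i hb
            simp only [Bool.and_eq_true, beq_iff_eq] at h hb
            subst hb
            exact ⟨_, cast_ne_zero_of_natAbs h.1, Or.inr (Or.inl ⟨_, _, _, rfl, termAbove_of_all h.2⟩)⟩
          · rename_i hb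
            split at h
            · rename_i d C'' post'' e'
              simp only [Bool.and_eq_true, beq_iff_eq, Bool.not_eq_true', beq_eq_false_iff_ne,
                List.isEmpty_iff] at h hb
              obtain ⟨⟨⟨⟨⟨hcub, rfl⟩, hC⟩, hab⟩, hneg⟩, hcom⟩ := h
              exact ⟨_, cast_ne_zero_of_natAbs hC, Or.inr (Or.inr
                ⟨_, _, _, _, _, rfl, termAbove_of_all hab, hb, hneg, hcom, h4 hcub⟩)⟩
            · simp at h
        · simp at h
    · simp at h

theorem sepData_of_cert {D : ChevalleyDatum} (m : ℕ) (h : sepB D m = true) {F : Type*} [Field F]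
    (hc : ∃ c : F, c ≠ 0 ∧ ∀ n : ℕ, 1 ≤ n → n ≤ m → c ^ n ≠ 1) : SepData D F := by
  intro k l hkl
  obtain ⟨c, hc0, hc⟩ := hc
  have h' := List.all_eq_true.1 (List.all_eq_true.1 h k (List.mem_range.2 k.2)) l (List.mem_range.2 l.2)
  simp only [Bool.or_eq_true, beq_iff_eq, List.any_eq_true, List.mem_range, Bool.and_eq_true,
    decide_eq_true_eq] at h'
  rcases h' with e | ⟨j, hj, j', hj', a, -, b, -, ⟨h0, h1⟩, h2⟩
  · exact absurd (Fin.ext e) hkl
  refine ⟨⟨j, hj⟩, ⟨j', hj'⟩, a, b, c, hc0, h0, ?_⟩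
  set n := a * D.cartan j (D.simple k) + b * D.cartan j' (D.simple k)
  intro e
  apply hc _ h1 h2
  rcases Int.natAbs_eq n with hn | hn
  · rw [hn, zpow_natCast] at e
    exact e
  · rw [hn, zpow_neg, zpow_natCast, inv_eq_one] at e
    exact e

section Field

variable {F : Type*} [Field F] [Fintype F]

omit [Field F] in
theorem exists_avoid (s : Finset F) (h : s.card < Fintype.card F) : ∃ t : F, t ∉ s := by
  by_contra hh
  push Not at hh
  exact absurd (Finset.card_le_card (fun x _ => hh x : (Finset.univ : Finset F) ⊆ s)) (not_le.2 h)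

theorem exists_sq_sub_ne (h : 3 ≤ Fintype.card F) : ∃ t : F, t ^ 2 - t ≠ 0 := by
  classical
  obtain ⟨t, ht⟩ := exists_avoid ({0, 1} : Finset F) (lt_of_le_of_lt Finset.card_le_two (by omega))
  simp only [Finset.mem_insert, Finset.mem_singleton, not_or] at ht
  refine ⟨t, ?_⟩
  rw [pow_two, ← mul_sub_one]
  exact mul_ne_zero ht.1 (sub_ne_zero.2 ht.2)

theorem exists_two_sq_sub_ne (h : 4 ≤ Fintype.card F) :
    ∃ t t' : F, t ^ 2 - t ≠ 0 ∧ t' ^ 2 - t' ≠ 0 ∧ t ≠ t' := by
  classical
  obtain ⟨t, ht⟩ := exists_sq_sub_ne (F := F) (by omega)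
  obtain ⟨t', ht'⟩ := exists_avoid ({0, 1, t} : Finset F) (lt_of_le_of_lt Finset.card_le_three (by omega))
  simp only [Finset.mem_insert, Finset.mem_singleton, not_or] at ht'
  refine ⟨t, t', ht, ?_, Ne.symm ht'.2.2⟩
  rw [pow_two, ← mul_sub_one]
  exact mul_ne_zero ht'.1 (sub_ne_zero.2 ht'.2.1)

theorem exists_pow_ne_one_le (m : ℕ) (hm : m = 1 ∧ 3 ≤ Fintype.card F ∨ m = 2 ∧ 4 ≤ Fintype.card F) :
    ∃ c : F, c ≠ 0 ∧ ∀ n : ℕ, 1 ≤ n → n ≤ m → c ^ n ≠ 1 := by
  classical
  rcases hm with ⟨rfl, h⟩ | ⟨rfl, h⟩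
  · obtain ⟨t, ht⟩ := exists_avoid ({0, 1} : Finset F) (lt_of_le_of_lt Finset.card_le_two (by omega))
    simp only [Finset.mem_insert, Finset.mem_singleton, not_or] at ht
    refine ⟨t, ht.1, fun n h1 h2 => ?_⟩
    obtain rfl : n = 1 := by omega
    rw [pow_one]
    exact ht.2
  · obtain ⟨t, ht⟩ := exists_avoid ({0, 1, -1} : Finset F) (lt_of_le_of_lt Finset.card_le_three (by omega))
    simp only [Finset.mem_insert, Finset.mem_singleton, not_or] at ht
    refine ⟨t, ht.1, fun n h1 h2 => ?_⟩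
    interval_cases n
    · rw [pow_one]
      exact ht.2.1
    · exact fun e => (sq_eq_one_iff.1 e).elim ht.2.1 ht.2.2

end Field

theorem wcData_G2 {F : Type*} [Field F] [Fintype F] (h : 4 ≤ Fintype.card F) :
    CommData chevG2 F ∧ SepData chevG2 F :=
  ⟨commData_of_certs (D := chevG2) true
    [(8, 0, 6), (9, 0, 6), (10, 0, 6), (11, 1, 10)]
    (by decide +kernel) (by decide +kernel) (exists_sq_sub_ne (by omega)) (fun _ => exists_two_sq_sub_ne h),
    sepData_of_cert 2 (by decide +kernel) (exists_pow_ne_one_le _ (Or.inr ⟨rfl, h⟩))⟩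

theorem wcData_B2 {F : Type*} [Field F] [Fintype F] (h : 4 ≤ Fintype.card F) :
    CommData chevB2 F ∧ SepData chevB2 F :=
  ⟨commData_of_certs (D := chevB2) false
    [(6, 0, 4), (7, 0, 4)]
    (by decide +kernel) (by decide +kernel) (exists_sq_sub_ne (by omega)) (fun e => absurd e (by decide)),
    sepData_of_cert 2 (by decide +kernel) (exists_pow_ne_one_le _ (Or.inr ⟨rfl, h⟩))⟩

theorem wcData_D4 {F : Type*} [Field F] [Fintype F] (h : 4 ≤ Fintype.card F) :
    CommData chevD4 F ∧ SepData chevD4 F :=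
  ⟨commData_of_certs (D := chevD4) false
    [(15, 1, 12), (16, 1, 13), (17, 2, 15), (19, 0, 14), (20, 0, 15), (21, 0, 16), (22, 0, 17), (23, 1, 22)]
    (by decide +kernel) (by decide +kernel) (exists_sq_sub_ne (by omega)) (fun e => absurd e (by decide)),
    sepData_of_cert 2 (by decide +kernel) (exists_pow_ne_one_le _ (Or.inr ⟨rfl, h⟩))⟩

theorem wcData_F4 {F : Type*} [Field F] [Fintype F] (h : 4 ≤ Fintype.card F) :
    CommData chevF4 F ∧ SepData chevF4 F :=
  ⟨commData_of_certs (D := chevF4) false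
    [(26, 2, 24), (28, 1, 25), (29, 1, 26), (30, 1, 25), (31, 3, 30), (32, 2, 31), (34, 0, 27), (35, 0, 28),
     (36, 0, 29), (37, 0, 30), (38, 0, 31), (39, 0, 32), (40, 1, 39), (41, 0, 30), (42, 3, 41), (43, 2, 42),
     (44, 0, 40), (45, 1, 43), (46, 2, 45), (47, 3, 46)]
    (by decide +kernel) (by decide +kernel) (exists_sq_sub_ne (by omega)) (fun e => absurd e (by decide)),
    sepData_of_cert 2 (by decide +kernel) (exists_pow_ne_one_le _ (Or.inr ⟨rfl, h⟩))⟩

theorem wcData_E6 {F : Type*} [Field F] [Fintype F] (h : 3 ≤ Fintype.card F) :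
    CommData chevE6 F ∧ SepData chevE6 F :=
  ⟨commData_of_certs (D := chevE6) false
    [(38, 4, 36), (40, 3, 37), (41, 3, 38), (43, 2, 39), (44, 2, 40), (45, 2, 41), (47, 1, 39), (48, 1, 40),
     (49, 1, 41), (50, 1, 43), (51, 1, 44), (52, 1, 45), (53, 3, 51), (54, 3, 52), (55, 4, 54), (57, 0, 42),
     (58, 0, 43), (59, 0, 44), (60, 0, 45), (61, 0, 50), (62, 0, 51), (63, 0, 52), (64, 0, 53), (65, 0, 54),
     (66, 0, 55), (67, 2, 64), (68, 2, 65), (69, 2, 66), (70, 3, 69), (71, 1, 70)]
    (by decide +kernel) (by decide +kernel) (exists_sq_sub_ne (by omega)) (fun e => absurd e (by decide)),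
    sepData_of_cert 1 (by decide +kernel) (exists_pow_ne_one_le _ (Or.inl ⟨rfl, h⟩))⟩

theorem wcData_E7 {F : Type*} [Field F] [Fintype F] (h : 3 ≤ Fintype.card F) :
    CommData chevE7 F ∧ SepData chevE7 F :=
  ⟨commData_of_certs (D := chevE7) false
    [(65, 5, 63), (67, 4, 64), (68, 4, 65), (70, 3, 66), (71, 3, 67), (72, 3, 68), (74, 2, 69), (75, 2, 70),
     (76, 2, 71), (77, 2, 72), (79, 1, 69), (80, 1, 70), (81, 1, 71), (82, 1, 72), (83, 1, 74), (84, 1, 75),
     (85, 1, 76), (86, 1, 77), (87, 3, 84), (88, 3, 85), (89, 3, 86), (90, 4, 88), (91, 4, 89), (92, 5, 91),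
     (94, 0, 73), (95, 0, 74), (96, 0, 75), (97, 0, 76), (98, 0, 77), (99, 0, 83), (100, 0, 84), (101, 0, 85),
     (102, 0, 86), (103, 0, 87), (104, 0, 88), (105, 0, 89), (106, 0, 90), (107, 0, 91), (108, 0, 92), (109,
     2, 103), (110, 2, 104), (111, 2, 105), (112, 2, 106), (113, 2, 107), (114, 2, 108), (115, 3, 112), (116,
     3, 113), (117, 3, 114), (118, 4, 117), (119, 1, 115), (120, 1, 116), (121, 1, 117), (122, 1, 118), (123,
     3, 122), (124, 2, 123), (125, 0, 124)]
    (by decide +kernel) (by decide +kernel) (exists_sq_sub_ne (by omega)) (fun e => absurd e (by decide)),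
    sepData_of_cert 1 (by decide +kernel) (exists_pow_ne_one_le _ (Or.inl ⟨rfl, h⟩))⟩

theorem wcData_E8 {F : Type*} [Field F] [Fintype F] (h : 3 ≤ Fintype.card F) :
    CommData chevE8 F ∧ SepData chevE8 F :=
  ⟨commData_of_certs (D := chevE8) false
    [(122, 6, 120), (124, 5, 121), (125, 5, 122), (127, 4, 123), (128, 4, 124), (129, 4, 125), (131, 3, 126),
     (132, 3, 127), (133, 3, 128), (134, 3, 129), (136, 2, 130), (137, 2, 131), (138, 2, 132), (139, 2, 133),
     (140, 2, 134), (142, 1, 130), (143, 1, 131), (144, 1, 132), (145, 1, 133), (146, 1, 134), (147, 1, 136),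
     (148, 1, 137), (149, 1, 138), (150, 1, 139), (151, 1, 140), (152, 3, 148), (153, 3, 149), (154, 3, 150),
     (155, 3, 151), (156, 4, 153), (157, 4, 154), (158, 4, 155), (159, 5, 157), (160, 5, 158), (161, 6, 160),
     (163, 0, 135), (164, 0, 136), (165, 0, 137), (166, 0, 138), (167, 0, 139), (168, 0, 140), (169, 0, 147),
     (170, 0, 148), (171, 0, 149), (172, 0, 150), (173, 0, 151), (174, 0, 152), (175, 0, 153), (176, 0, 154),
     (177, 0, 155), (178, 0, 156), (179, 0, 157), (180, 0, 158), (181, 0, 159), (182, 0, 160), (183, 0, 161),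
     (184, 2, 174), (185, 2, 175), (186, 2, 176), (187, 2, 177), (188, 2, 178), (189, 2, 179), (190, 2, 180),
     (191, 2, 181), (192, 2, 182), (193, 2, 183), (194, 3, 188), (195, 3, 189), (196, 3, 190), (197, 3, 191),
     (198, 3, 192), (199, 3, 193), (200, 4, 197), (201, 4, 198), (202, 4, 199), (203, 5, 202), (204, 1, 194),
     (205, 1, 195), (206, 1, 196), (207, 1, 197), (208, 1, 198), (209, 1, 199), (210, 1, 200), (211, 1, 201),
     (212, 1, 202), (213, 1, 203), (214, 3, 210), (215, 3, 211), (216, 3, 212), (217, 3, 213), (218, 4, 217),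
     (219, 2, 214), (220, 2, 215), (221, 2, 216), (222, 2, 217), (223, 2, 218), (224, 3, 223), (225, 1, 224),
     (226, 0, 219), (227, 0, 220), (228, 0, 221), (229, 0, 222), (230, 0, 223), (231, 0, 224), (232, 2, 231),
     (233, 0, 225), (234, 1, 232), (235, 3, 234), (236, 4, 235), (237, 5, 236), (238, 6, 237), (239, 7, 238)]
    (by decide +kernel) (by decide +kernel) (exists_sq_sub_ne (by omega)) (fun e => absurd e (by decide)),
    sepData_of_cert 1 (by decide +kernel) (exists_pow_ne_one_le _ (Or.inl ⟨rfl, h⟩))⟩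

end Cfsg.Agent.ChevGrp
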